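import Cfsg.Agent.H751.BD.Basic
import Cfsg.Agent.S0913

/-!
# A relation between degrees from a direct product inside the group (helper751, for S4932, S4953)

`f : A × B →* H` injective, `u ∈ A` of order divisible by `p`. Averaging the relation
`∑_{χ ∈ B0(H)} χ(1) χ(uy) = 0` over `y ∈ B` shows: there is `0 < D ≤ |H| / |A × B|` such that every common divisor
of the degrees of the `χ ∈ B0(H)` lying over some `θ × 1`, `θ ≠ 1`, divides `D`.
-/

set_option autoImplicit false
set_option linter.unusedSectionVars false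

namespace Cfsg.Agent.H751.BD

open Cfsg Cfsg.Agent.H589.BD Cfsg.Agent.Characters.Core Cfsg.Agent.H672
open scoped ComplexConjugate

universe u v w

theorem isIntegral_nat (n : ℕ) : IsIntegral ℤ (n : ℂ) := by
  simpa using isIntegral_algebraMap (R := ℤ) (A := ℂ) (x := (n : ℤ))

/-- A quotient of integers which is an algebraic integer. -/
theorem dvd_of_integral {D g : ℕ} {z : ℂ} (hz : IsIntegral ℤ z) (h : (D : ℂ) = g * z) : g ∣ D := by
  by_cases hg : g = 0
  · subst hg
    rw [Nat.cast_zero, zero_mul] at h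
    have : D = 0 := by exact_mod_cast h
    rw [this]
  · have hg' : (g : ℂ) ≠ 0 := by exact_mod_cast hg
    have h1 : z = algebraMap ℚ ℂ ((D : ℚ) / g) := by
      rw [eq_ratCast, Rat.cast_div, Rat.cast_natCast, Rat.cast_natCast, h]
      field_simp
    rw [h1, isIntegral_algebraMap_iff (algebraMap ℚ ℂ).injective] at hz
    obtain ⟨n, hn⟩ := IsIntegrallyClosed.isIntegral_iff.1 hz
    have hg'' : (g : ℚ) ≠ 0 := by exact_mod_cast hg
    have h2 : (D : ℚ) = g * n := by
      rw [eq_intCast] at hn
      rw [hn]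
      field_simp
    have h3 : (D : ℤ) = g * n := by exact_mod_cast h2
    exact Int.natCast_dvd_natCast.1 ⟨n, h3⟩

section
variable {H : Type u} [Group H]

/-- The regular character. -/
theorem sum_regular [Fintype H] [Fintype (IrrCharacter H)] [DecidableEq H] (g : H) :
    ∑ χ : IrrCharacter H, (χ : H → ℂ) 1 * (χ : H → ℂ) g = if g = 1 then (Nat.card H : ℂ) else 0 := by
  have hf : IsClassFunction H (fun g : H => if g = 1 then (Nat.card H : ℂ) else 0) := by
    intro g h
    have : h * g * h⁻¹ = 1 ↔ g = 1 := by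
      rw [mul_inv_eq_one]
      constructor
      · intro e
        exact mul_eq_left.1 e
      · rintro rfl
        exact mul_one h
    simp only [this]
  have h1 := congrFun (classFunction_eq_sum hf) g
  rw [h1]
  simp only [Finset.sum_apply, Pi.smul_apply, smul_eq_mul]
  refine Finset.sum_congr rfl fun χ _ => ?_
  congr 1
  rw [classInner_def]
  have h2 : ∑ x : H, (if x = 1 then (Nat.card H : ℂ) else 0) * conj ((χ : H → ℂ) x) =
      (Nat.card H : ℂ) * conj ((χ : H → ℂ) 1) := by
    rw [Finset.sum_eq_single (1 : H)]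
    · rw [if_pos rfl]
    · intro b _ hb
      rw [if_neg hb, zero_mul]
    · intro h; exact absurd (Finset.mem_univ _) h
  rw [h2, ← mul_assoc, inv_mul_cancel₀ card_ne_zero_complex, one_mul]
  rw [← coe_charDegree χ.2, Complex.conj_natCast]

/-- Weak block orthogonality with the identity. -/
theorem sum_mem_eq_zero [Finite H] {p : ℕ} [Fact p.Prime] {M : Ideal AlgInt} (hM : IsPModular p M)
    [Fintype (IrrCharacter H)] [DecidablePred (· ∈ principalBlock M H)] {y : H} (hy : p ∣ orderOf y) :
    ∑ χ : IrrCharacter H with χ ∈ principalBlock M H, (χ : H → ℂ) 1 * (χ : H → ℂ) y = 0 := by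
  have hPB : IsPBlock M (principalBlock M H) := ⟨⟨_, isIrr_one⟩, rfl⟩
  have hR := S0913.result p M hM (principalBlock M H) hPB
  have h1 := Blocks.Orthogonality.weak_block_orthogonality hM (principalBlock M H) hR (x := (1 : H))
    (y := y⁻¹) (by
      rw [orderOf_one]
      exact fun h => Nat.Prime.one_lt (Fact.out : p.Prime) |>.ne' (Nat.dvd_one.1 h))
    (by rw [orderOf_inv]; exact hy)
  rw [finsum_mem_eq_finite_toFinset_sum _ (Set.toFinite _)] at h1
  rw [← h1]
  refine Finset.sum_congr ?_ fun χ _ => ?_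
  · ext χ
    simp
  · rw [← Blocks.Orthogonality.irr_apply_inv χ.2, inv_inv]

end

section
variable {H : Type u} [Group H] {A : Type v} [Group A] {B : Type w} [Group B]

/-- Average over the second factor. -/
noncomputable def av [Fintype B] (f : A × B →* H) (χ : H → ℂ) : A → ℂ :=
  fun a => (Nat.card B : ℂ)⁻¹ * ∑ b : B, χ (f (a, b))

theorem av_class [Fintype B] (f : A × B →* H) {χ : H → ℂ} (hχ : IsClassFunction H χ) :
    IsClassFunction A (av f χ) := by
  intro g h
  unfold av
  congr 1
  refine Finset.sum_congr rfl fun b _ => ?_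
  have h1 : f (h * g * h⁻¹, b) = f (h, 1) * f (g, b) * (f (h, 1))⁻¹ := by
    rw [← map_inv, ← map_mul, ← map_mul]
    congr 1
    simp
  rw [h1]
  exact hχ _ _

theorem classInner_av [Fintype A] [Fintype B] (f : A × B →* H) (χ : H → ℂ) (θ : A → ℂ) :
    classInner (av f χ) θ = classInner (χ ∘ f) (θ ∘ MonoidHom.fst A B) := by
  rw [classInner_def, classInner_def, Fintype.sum_prod_type, Nat.card_prod]
  push_cast
  rw [mul_inv, mul_assoc]
  congr 1
  rw [Finset.mul_sum]
  refine Finset.sum_congr rfl fun a _ => ?_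
  unfold av
  rw [mul_assoc]
  congr 1
  rw [Finset.sum_mul]
  rfl

/-- `χ` lies over `θ × 1` for some nontrivial `θ`. -/
def TT [Finite A] [Finite B] (f : A × B →* H) (χ : H → ℂ) : Prop :=
  ∃ θ : A → ℂ, IsIrrCharacter A θ ∧ θ ≠ 1 ∧ Over f χ (θ ∘ MonoidHom.fst A B)

theorem exists_D [Finite H] [Finite A] [Finite B] {p : ℕ} [Fact p.Prime] {M : Ideal AlgInt}
    (hM : IsPModular p M) (f : A × B →* H) (hf : Function.Injective f) {u : A} (hu : p ∣ orderOf u) :
    ∃ D : ℕ, 0 < D ∧ D * (Nat.card A * Nat.card B) ≤ Nat.card H ∧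
      ∀ g : ℕ, (∀ χ : IrrCharacter H, χ ∈ principalBlock M H → TT f (χ : H → ℂ) →
        g ∣ charDegree (χ : H → ℂ)) → g ∣ D := by
  classical
  have := Fintype.ofFinite H
  have := Fintype.ofFinite A
  have := Fintype.ofFinite B
  have := finite_irr (G := H)
  have := finite_irr (G := A)
  have := Fintype.ofFinite (IrrCharacter H)
  have := Fintype.ofFinite (IrrCharacter A)
  have hsurj : Function.Surjective (MonoidHom.fst A B) := fun a => ⟨(a, 1), rfl⟩
  -- natural coefficients
  choose c hc using fun (χ : IrrCharacter H) (θ : IrrCharacter A) =>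
    classInner_isNat (isCharacter_comp f (isIrr_isCharacter χ.2))
      (isCharacter_comp (MonoidHom.fst A B) (isIrr_isCharacter θ.2))
  have hav : ∀ (χ : IrrCharacter H) (a : A),
      av f (χ : H → ℂ) a = ∑ θ : IrrCharacter A, (c χ θ : ℂ) * (θ : A → ℂ) a := by
    intro χ a
    have h1 := congrFun (classFunction_eq_sum (av_class f (isIrr_isClassFunction χ.2))) a
    rw [h1]
    simp only [Finset.sum_apply, Pi.smul_apply, smul_eq_mul]
    refine Finset.sum_congr rfl fun θ _ => ?_
    rw [classInner_av, hc]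
  have hint : ∀ (χ : IrrCharacter H) (a : A), IsIntegral ℤ (av f (χ : H → ℂ) a) := by
    intro χ a
    rw [hav]
    refine IsIntegral.sum _ fun θ _ => ?_
    exact (isIntegral_nat _).mul
      (Blocks.Central.isIntegral_irr θ.2 a)
  let one : IrrCharacter A := triv A
  have hd : ∀ χ : IrrCharacter H, ¬ TT f (χ : H → ℂ) → av f (χ : H → ℂ) u = c χ one := by
    intro χ hχ
    rw [hav, Finset.sum_eq_single one]
    · rw [show ((one : IrrCharacter A) : A → ℂ) u = 1 from rfl, mul_one]
    · intro θ _ hθ
      have : c χ θ = 0 := by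
        by_contra h0
        apply hχ
        refine ⟨θ, θ.2, fun h1 => hθ (Subtype.ext h1), ?_⟩
        rw [over_iff, hc]
        exact_mod_cast h0
      rw [this, Nat.cast_zero, zero_mul]
    · intro h; exact absurd (Finset.mem_univ _) h
  -- the relation
  have hrel : ∑ χ : IrrCharacter H with χ ∈ principalBlock M H,
      (χ : H → ℂ) 1 * av f (χ : H → ℂ) u = 0 := by
    unfold av
    have h1 : ∀ χ : IrrCharacter H, (χ : H → ℂ) 1 * ((Nat.card B : ℂ)⁻¹ * ∑ b : B, (χ : H → ℂ) (f (u, b)))
        = (Nat.card B : ℂ)⁻¹ * ∑ b : B, (χ : H → ℂ) 1 * (χ : H → ℂ) (f (u, b)) := by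
      intro χ
      rw [Finset.mul_sum, Finset.mul_sum, Finset.mul_sum]
      refine Finset.sum_congr rfl fun b _ => ?_
      ring
    simp_rw [h1]
    rw [← Finset.mul_sum, Finset.sum_comm, Finset.sum_eq_zero, mul_zero]
    intro b _
    apply sum_mem_eq_zero hM
    rw [orderOf_injective f hf]
    exact hu.trans (by rw [Prod.orderOf_mk]; exact Nat.dvd_lcm_left _ _)
  -- the number
  let D : ℕ := ∑ χ : IrrCharacter H with (χ ∈ principalBlock M H ∧ ¬ TT f (χ : H → ℂ)),
    charDegree (χ : H → ℂ) * c χ one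
  have hT : ¬ TT f ((triv H : IrrCharacter H) : H → ℂ) := by
    rintro ⟨θ, hθ, hθ1, h⟩
    rw [over_iff] at h
    apply h
    have e : (((triv H : IrrCharacter H) : H → ℂ) ∘ f) = (fun _ => 1) := rfl
    rw [e]
    apply classInner_irr_ne isIrr_one (isIrr_comp _ hsurj hθ)
    intro h2
    apply hθ1
    funext a
    exact (congrFun h2 (a, 1)).symm
  have hc1 : c (triv H) one = 1 := by
    have h1 := hc (triv H) one
    have e : (((triv H : IrrCharacter H) : H → ℂ) ∘ f) = (1 : A × B → ℂ) := rfl
    have e' : (((one : IrrCharacter A) : A → ℂ) ∘ (MonoidHom.fst A B)) = (1 : A × B → ℂ) := rfl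
    rw [e, e', classInner_irr_self isIrr_one] at h1
    exact_mod_cast h1.symm
  refine ⟨D, ?_, ?_, ?_⟩
  · refine Finset.sum_pos' (fun _ _ => Nat.zero_le _) ⟨triv H, ?_, ?_⟩
    · rw [Finset.mem_filter]
      exact ⟨Finset.mem_univ _, triv_mem hM, hT⟩
    · rw [hc1, charDegree_triv]
      exact one_pos
  · have hall : (∑ χ : IrrCharacter H, charDegree (χ : H → ℂ) * c χ one) * (Nat.card A * Nat.card B) =
        Nat.card H := by
      have hcast : (((∑ χ : IrrCharacter H, charDegree (χ : H → ℂ) * c χ one) *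
          (Nat.card A * Nat.card B) : ℕ) : ℂ) = (Nat.card H : ℂ) := by
        push_cast
        have e1 : ∀ χ : IrrCharacter H, (charDegree (χ : H → ℂ) : ℂ) * (c χ one : ℂ) =
            ((Nat.card A : ℂ) * Nat.card B)⁻¹ * ∑ x : A × B, (χ : H → ℂ) 1 * (χ : H → ℂ) (f x) := by
          intro χ
          rw [← hc, coe_charDegree χ.2, classInner_def, Nat.card_prod]
          push_cast
          rw [← Finset.mul_sum, ← mul_assoc, ← mul_assoc, mul_comm ((χ : H → ℂ) 1)]
          congr 1
          refine Finset.sum_congr rfl fun x _ => ?_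
          show (χ : H → ℂ) (f x) * conj ((1 : ℂ)) = _
          rw [map_one, mul_one]
        simp_rw [e1]
        rw [← Finset.mul_sum, Finset.sum_comm]
        have e2 : ∑ x : A × B, ∑ χ : IrrCharacter H, (χ : H → ℂ) 1 * (χ : H → ℂ) (f x) =
            (Nat.card H : ℂ) := by
          simp_rw [sum_regular]
          rw [Finset.sum_eq_single (1 : A × B)]
          · rw [map_one, if_pos rfl]
          · intro b _ hb
            rw [if_neg]
            intro h
            exact hb (hf (by rw [h, map_one]))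
          · intro h; exact absurd (Finset.mem_univ _) h
        rw [e2]
        have hA : (Nat.card A : ℂ) ≠ 0 := card_ne_zero_complex
        have hB : (Nat.card B : ℂ) ≠ 0 := card_ne_zero_complex
        field_simp
      exact_mod_cast hcast
    rw [← hall]
    refine Nat.mul_le_mul_right _ ?_
    exact Finset.sum_le_sum_of_subset (Finset.filter_subset _ _)
  · intro g hg
    have hdv : ∀ χ : IrrCharacter H, χ ∈ principalBlock M H → TT f (χ : H → ℂ) →
        ∃ k : ℕ, charDegree (χ : H → ℂ) = g * k := fun χ h1 h2 => hg χ h1 h2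
    choose! k hk using hdv
    have hsplit : ∑ χ : IrrCharacter H with χ ∈ principalBlock M H,
        (χ : H → ℂ) 1 * av f (χ : H → ℂ) u =
        (∑ χ : IrrCharacter H with (χ ∈ principalBlock M H ∧ TT f (χ : H → ℂ)),
          (χ : H → ℂ) 1 * av f (χ : H → ℂ) u) +
        ∑ χ : IrrCharacter H with (χ ∈ principalBlock M H ∧ ¬ TT f (χ : H → ℂ)),
          (χ : H → ℂ) 1 * av f (χ : H → ℂ) u := by
      rw [← Finset.filter_filter, ← Finset.filter_filter]
      exact (Finset.sum_filter_add_sum_filter_not _ _ _).symm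
    have h1 : ∑ χ : IrrCharacter H with (χ ∈ principalBlock M H ∧ ¬ TT f (χ : H → ℂ)),
          (χ : H → ℂ) 1 * av f (χ : H → ℂ) u = (D : ℂ) := by
      rw [Nat.cast_sum]
      refine Finset.sum_congr rfl fun χ hχ => ?_
      rw [Finset.mem_filter] at hχ
      rw [hd χ hχ.2.2, Nat.cast_mul, coe_charDegree χ.2]
    have h2 : ∑ χ : IrrCharacter H with (χ ∈ principalBlock M H ∧ TT f (χ : H → ℂ)),
          (χ : H → ℂ) 1 * av f (χ : H → ℂ) u =
        g * ∑ χ : IrrCharacter H with (χ ∈ principalBlock M H ∧ TT f (χ : H → ℂ)),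
          (k χ : ℂ) * av f (χ : H → ℂ) u := by
      rw [Finset.mul_sum]
      refine Finset.sum_congr rfl fun χ hχ => ?_
      rw [Finset.mem_filter] at hχ
      rw [← coe_charDegree χ.2, hk χ hχ.2.1 hχ.2.2, Nat.cast_mul, mul_assoc]
    rw [hrel, h1, h2] at hsplit
    refine dvd_of_integral (z := -∑ χ : IrrCharacter H with (χ ∈ principalBlock M H ∧ TT f (χ : H → ℂ)),
          (k χ : ℂ) * av f (χ : H → ℂ) u) ?_ ?_
    · refine IsIntegral.neg (IsIntegral.sum _ fun χ _ => ?_)
      exact (isIntegral_nat _).mul (hint χ u)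
    · rw [mul_neg]
      linear_combination -hsplit

end

end Cfsg.Agent.H751.BD
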