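import Cfsg.Agent.H751.BD.Prod
import Cfsg.Agent.H133.PB.Basic
import Cfsg.Agent.H934.OutB
import Cfsg.Agent.SmallSimple.BurnsideNC
import Cfsg.Agent.Lib.MinNormalNonabelian

/-!
# A simple component and the degrees over it (helper751, for S4932, S4953)

`Tic N S`: `S` is a nonabelian simple subgroup of `H` that commutes with all its other conjugates, `N` is a normal
subgroup of `H` with `S ≤ N ≤ S C_H(S)`.
-/

set_option autoImplicit false
set_option linter.unusedSectionVars false

namespace Cfsg.Agent.H751.BD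

open Cfsg Cfsg.Agent.H589.BD Cfsg.Agent.Characters.Core Cfsg.Agent.H672

universe u v w

variable {H : Type u} [Group H]

/-- The product map. -/
def mul2 (S : Subgroup H) : ↥S × ↥(Subgroup.centralizer (S : Set H)) →* H :=
  MonoidHom.noncommCoprod S.subtype (Subgroup.centralizer (S : Set H)).subtype fun s c =>
    (Subgroup.mem_centralizer_iff.1 c.2 s s.2)

theorem mul2_apply (S : Subgroup H) (s : S) (c : Subgroup.centralizer (S : Set H)) :
    mul2 S (s, c) = s * c := rfl

/-- `S` is nonabelian simple, commutes with its other conjugates, `N` is normal with `S ≤ N ≤ S C_H(S)`. -/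
structure Tic (N S : Subgroup H) : Prop where
  simple : IsSimpleGroup S
  nonab : ¬ IsMulCommutative S
  norm : N.Normal
  le : S ≤ N
  inner : N ≤ (mul2 S).range
  ti : ∀ h : H, S.map (MulAut.conj h).toMonoidHom = S ∨
    ∀ x ∈ S, h * x * h⁻¹ ∈ Subgroup.centralizer (S : Set H)

namespace Tic

variable {N S : Subgroup H} (h : Tic N S)
include h

theorem disj {x : H} (hx : x ∈ S) (hc : x ∈ Subgroup.centralizer (S : Set H)) : x = 1 := by
  have := h.simple
  rcases Lib.MinNormalNonabelian.commute_or_center_trivial (T := S) with h1 | h1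
  · exact absurd ⟨⟨fun a b => (h1 a b).eq⟩⟩ h.nonab
  · have h2 := h1 ⟨x, hx⟩ fun t => Subtype.ext (Subgroup.mem_centralizer_iff.1 hc t t.2).symm
    exact congrArg Subtype.val h2

theorem inj : Function.Injective (mul2 S) := by
  rw [injective_iff_map_eq_one]
  rintro ⟨s, c⟩ hsc
  rw [mul2_apply] at hsc
  have h1 : (s : H) = (c : H)⁻¹ := eq_inv_of_mul_eq_one_left hsc
  have h2 : (s : H) = 1 := h.disj s.2 (by rw [h1]; exact inv_mem c.2)
  have h3 : (c : H) = 1 := by rw [h2, one_mul] at hsc; exact hsc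
  exact Prod.ext (Subtype.ext h2) (Subtype.ext h3)

/-- Coordinates. -/
noncomputable def co : N →* ↥S × ↥(Subgroup.centralizer (S : Set H)) :=
  ((mul2 S).ofInjective h.inj).symm.toMonoidHom.comp (Subgroup.inclusion h.inner)

theorem mul2_co (x : N) : mul2 S (h.co x) = x := by
  have h1 : (mul2 S).ofInjective h.inj (h.co x) = Subgroup.inclusion h.inner x :=
    ((mul2 S).ofInjective h.inj).apply_symm_apply _
  exact congrArg Subtype.val h1

theorem mul2_comp_co : (mul2 S).comp h.co = N.subtype := MonoidHom.ext h.mul2_co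

/-- The projection to `S`. -/
noncomputable def pi : N →* S := (MonoidHom.fst _ _).comp h.co

theorem co_eq {x : N} {s : S} {c : Subgroup.centralizer (S : Set H)} (e : (x : H) = s * c) :
    h.co x = (s, c) := by
  apply h.inj
  rw [h.mul2_co, e, mul2_apply]

theorem pi_of_mem {x : N} (hx : (x : H) ∈ S) : h.pi x = ⟨x, hx⟩ := by
  have : h.co x = (⟨x, hx⟩, 1) := h.co_eq (by rw [OneMemClass.coe_one, mul_one])
  show (h.co x).1 = _
  rw [this]

theorem pi_of_comm {x : N} (hx : (x : H) ∈ Subgroup.centralizer (S : Set H)) : h.pi x = 1 := by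
  have : h.co x = (1, ⟨x, hx⟩) := h.co_eq (by rw [OneMemClass.coe_one, one_mul])
  show (h.co x).1 = _
  rw [this]

theorem pi_surj : Function.Surjective h.pi := fun s =>
  ⟨⟨s, h.le s.2⟩, by rw [h.pi_of_mem s.2]⟩

theorem exists_dec (x : N) : ∃ c ∈ Subgroup.centralizer (S : Set H), (x : H) = h.pi x * c := by
  refine ⟨(h.co x).2, (h.co x).2.2, ?_⟩
  rw [← h.mul2_co x]
  rfl

/-- The character `θ × 1` of `N`. -/
noncomputable def infl (θ : IrrCharacter S) : IrrCharacter N :=
  ⟨(θ : S → ℂ) ∘ h.pi, isIrr_comp h.pi h.pi_surj θ.2⟩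

theorem infl_apply (θ : IrrCharacter S) (x : N) : (h.infl θ : N → ℂ) x = (θ : S → ℂ) (h.pi x) := rfl

theorem charDegree_infl (θ : IrrCharacter S) :
    charDegree (h.infl θ : N → ℂ) = charDegree (θ : S → ℂ) := by
  apply charDegree_of_eq
  rw [infl_apply, map_one, coe_charDegree θ.2]

variable [Finite H]

theorem over_of_mul2 {χ : H → ℂ} (hχ : IsIrrCharacter H χ) {θ : IrrCharacter S}
    (ho : Over (mul2 S) χ ((θ : S → ℂ) ∘ MonoidHom.fst _ _)) :
    Over N.subtype χ (h.infl θ : N → ℂ) := by
  have hs : Function.Surjective (MonoidHom.fst ↥S ↥(Subgroup.centralizer (S : Set H))) :=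
    fun a => ⟨(a, 1), rfl⟩
  have hi : IsIrrCharacter (↥S × ↥(Subgroup.centralizer (S : Set H)))
      ((θ : S → ℂ) ∘ MonoidHom.fst _ _) := isIrr_comp _ hs θ.2
  have ho2 : Over h.co ((θ : S → ℂ) ∘ MonoidHom.fst _ _) (h.infl θ : N → ℂ) :=
    over_self h.co (h.infl θ).2 (by funext x; rfl)
  rw [← h.mul2_comp_co, over_comp_iff _ _ (isIrr_isCharacter hχ) (h.infl θ).2]
  exact ⟨_, hi, ho, ho2⟩

/-- Restriction to a smaller subgroup, multiples of a single character. -/
theorem mem_block_of_infl {p : ℕ} [Fact p.Prime] {M : Ideal AlgInt} (hM : IsPModular p M)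
    {θ : IrrCharacter S} (hθ : h.infl θ ∈ principalBlock M N) : θ ∈ principalBlock M S := by
  have hMp : M.IsPrime := hM.2.1.isPrime
  have hn : (S.subgroupOf N).Normal := by
    constructor
    intro x hx n
    rw [Subgroup.mem_subgroupOf] at hx ⊢
    obtain ⟨c, hc, e⟩ := h.exists_dec n
    rw [Subgroup.coe_mul, Subgroup.coe_mul, Subgroup.coe_inv, e]
    have h1 : c * (x : H) * c⁻¹ = x := by
      have := Subgroup.mem_centralizer_iff.1 hc x hx
      rw [← this, mul_inv_cancel_right]
    have h2 : (h.pi n : H) * c * (x : H) * ((h.pi n : H) * c)⁻¹ =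
        (h.pi n : H) * (c * (x : H) * c⁻¹) * (h.pi n : H)⁻¹ := by group
    rw [h2, h1]
    exact S.mul_mem (S.mul_mem (h.pi n).2 hx) (S.inv_mem (h.pi n).2)
  let e : S.subgroupOf N ≃* S := Subgroup.subgroupOfEquivOfLe h.le
  have h1 : (⟨(θ : S → ℂ) ∘ e, isIrr_comp e.toMonoidHom e.surjective θ.2⟩ : IrrCharacter (S.subgroupOf N)) ∈
      principalBlock M (S.subgroupOf N) := by
    refine mem_of_over hM (S.subgroupOf N) hθ (over_self _ ?_ ?_)
    · exact isIrr_comp e.toMonoidHom e.surjective θ.2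
    · funext x
      have : h.pi ((S.subgroupOf N).subtype x) = e x := by
        rw [h.pi_of_mem (x := (S.subgroupOf N).subtype x) x.2]
        rfl
      show (θ : S → ℂ) (h.pi ((S.subgroupOf N).subtype x)) = (θ : S → ℂ) (e x)
      rw [this]
  have h2 := H133.PB.mem_principalBlock_comp e.symm.toMonoidHom e.symm.surjective h1
  have h3 : (⟨((⟨(θ : S → ℂ) ∘ e, isIrr_comp e.toMonoidHom e.surjective θ.2⟩ :
      IrrCharacter (S.subgroupOf N)) : (S.subgroupOf N) → ℂ) ∘ e.symm.toMonoidHom,
      isIrr_comp e.symm.toMonoidHom e.symm.surjective (isIrr_comp e.toMonoidHom e.surjective θ.2)⟩ :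
      IrrCharacter S) = θ := by
    apply Subtype.ext
    funext x
    show (θ : S → ℂ) (e (e.symm x)) = _
    rw [e.apply_symm_apply]
  rwa [h3] at h2

/-- An irreducible character which is constant is trivial. -/
theorem eq_one_of_const {K : Type v} [Group K] [Finite K] {θ : IrrCharacter K}
    (hc : ∀ x, (θ : K → ℂ) x = (θ : K → ℂ) 1) : (θ : K → ℂ) = 1 := by
  have := Fintype.ofFinite K
  by_contra hne
  have h1 := classInner_irr_ne θ.2 isIrr_one hne
  have h2 : (θ : K → ℂ) = ((θ : K → ℂ) 1) • (1 : K → ℂ) := by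
    funext x
    rw [Pi.smul_apply, Pi.one_apply, smul_eq_mul, mul_one, hc]
  rw [h2, classInner_smul_left, classInner_irr_self isIrr_one, mul_one] at h1
  exact isIrr_apply_one_ne_zero θ.2 h1

/-- The inertia group of `θ × 1` normalizes `S`. -/
theorem inertia_le {θ : IrrCharacter S} (hθ : (θ : S → ℂ) ≠ 1) :
    haveI := h.norm
    inertia N (h.infl θ : N → ℂ) ≤ Subgroup.normalizer (S : Set H) := by
  have hN := h.norm
  intro g hg
  rw [mem_inertia_iff] at hg
  rcases h.ti g with h1 | h1
  · rw [Subgroup.mem_normalizer_iff_conj_image_eq] at *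
    exact congrArg (fun X : Subgroup H => (X : Set H)) h1
  · exfalso
    apply hθ
    apply eq_one_of_const h
    intro x
    have h2 := hg ⟨x, h.le x.2⟩
    rw [infl_apply, infl_apply, h.pi_of_mem (x := ⟨x, h.le x.2⟩) x.2, h.pi_of_comm (h1 x x.2)] at h2
    exact h2.symm

/-- Degrees of characters over `θ × 1`. -/
theorem dvd {χ : H → ℂ} (hχ : IsIrrCharacter H χ) {θ : IrrCharacter S} (hθ : (θ : S → ℂ) ≠ 1)
    (ho : Over N.subtype χ (h.infl θ : N → ℂ)) :
    (Subgroup.normalizer (S : Set H)).index * charDegree (θ : S → ℂ) ∣ charDegree χ := by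
  have hN := h.norm
  have h1 := index_mul_charDegree_dvd N hχ (h.infl θ).2 ho
  rw [h.charDegree_infl] at h1
  exact (Nat.mul_dvd_mul_right (Subgroup.index_dvd_of_le (h.inertia_le hθ)) _).trans h1

theorem card_le : Nat.card H ≤ (Subgroup.normalizer (S : Set H)).index * Nat.card (Out S) *
    (Nat.card S * Nat.card (Subgroup.centralizer (S : Set H))) := by
  have := h.simple
  have h1 := SmallSimple.BurnsideNC.relIndex_dvd_card_mulAut S
  have h2 := H934.OutB.card_out_mul S h.nonab
  have h3 : Nat.card (MulAut S) ≠ 0 := Nat.card_pos.ne'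
  have h4 := Nat.le_of_dvd (Nat.pos_of_ne_zero h3) h1
  have h5 : Subgroup.centralizer (S : Set H) ≤ Subgroup.normalizer (S : Set H) :=
    Subgroup.centralizer_le_normalizer _
  have h6 : (Subgroup.centralizer (S : Set H)).relIndex (Subgroup.normalizer (S : Set H)) *
      Nat.card (Subgroup.centralizer (S : Set H)) = Nat.card (Subgroup.normalizer (S : Set H)) := by
    rw [← Nat.card_congr (Subgroup.subgroupOfEquivOfLe h5).toEquiv, Subgroup.relIndex]
    exact Subgroup.index_mul_card _
  have h7 := (Subgroup.normalizer (S : Set H)).index_mul_card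
  rw [← h7, ← h6, mul_assoc]
  refine Nat.mul_le_mul_left _ ?_
  rw [← mul_assoc]
  refine Nat.mul_le_mul_right _ ?_
  rw [h2]
  exact h4

end Tic

end Cfsg.Agent.H751.BD
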