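import Cfsg.Agent.H751.BD.Clu
import Cfsg.Agent.S0188

/-!
# There are no two simple components (helper751, for S4932, S4953)
-/

set_option autoImplicit false
set_option linter.unusedSectionVars false

namespace Cfsg.Agent.H751.BD

open Cfsg Cfsg.Agent.H589.BD Cfsg.Agent.Characters.Core Cfsg.Agent.H672
open Cfsg.Agent.Blocks.Local Cfsg.Agent.Blocks.Basic

universe u v w

section outer

/-! The outer product, after `H819.KB.Prod`. -/

variable {A : Type u} {B : Type v} [Group A] [Group B]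

theorem centralizer_pair (a : A) (b : B) :
    Subgroup.centralizer ({(a, b)} : Set (A × B)) =
      (Subgroup.centralizer ({a} : Set A)).prod (Subgroup.centralizer ({b} : Set B)) := by
  ext ⟨x, y⟩
  simp only [Subgroup.mem_prod, Subgroup.mem_centralizer_singleton_iff, Prod.mk_mul_mk, Prod.mk.injEq]

theorem centralChar_outer (φ : A → ℂ) (ψ : B → ℂ) (a : A) (b : B) :
    centralChar (fun x : A × B => φ x.1 * ψ x.2) (a, b) = centralChar φ a * centralChar ψ b := by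
  unfold centralChar
  rw [centralizer_pair, Subgroup.index_prod]
  push_cast
  rw [div_mul_div_comm]
  congr 1
  ring

/-- The outer product of irreducible characters. -/
noncomputable def outer [Finite A] [Finite B] (α : IrrCharacter A) (β : IrrCharacter B) : IrrCharacter (A × B) :=
  ⟨fun x => (α : A → ℂ) x.1 * (β : B → ℂ) x.2, Cfsg.Agent.S0188.isIrr_outer α.2 β.2⟩

theorem outer_mem [Finite A] [Finite B] {M : Ideal AlgInt} [M.IsPrime] {α : IrrCharacter A}
    (hα : α ∈ principalBlock M A) {β : IrrCharacter B} (hβ : β ∈ principalBlock M B) :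
    outer α β ∈ principalBlock M (A × B) := by
  rintro ⟨a, b⟩
  have h1 : centralChar (fun _ : A × B => (1 : ℂ)) (a, b) =
      centralChar (fun _ : A => (1 : ℂ)) a * centralChar (fun _ : B => (1 : ℂ)) b := by
    rw [← centralChar_outer]
    simp only [mul_one]
  show MemLocalIdeal M (centralChar (fun _ : A × B => (1 : ℂ)) (a, b) -
    centralChar (fun x : A × B => (α : A → ℂ) x.1 * (β : B → ℂ) x.2) (a, b))
  rw [h1, centralChar_outer]
  refine memLocalIdeal_mul_sub_mul ?_ ?_ (hα a) (hβ b)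
  · exact memLocalRing_of_isIntegral (Cfsg.Agent.Blocks.Central.isIntegral_centralChar isIrrCharacter_one a)
  · exact memLocalRing_of_isIntegral (Cfsg.Agent.Blocks.Central.isIntegral_centralChar β.2 b)

end outer

variable {H : Type u} [Group H]

/-- Two commuting simple components. -/
structure Two (N S₁ S₂ : Subgroup H) : Prop where
  t₁ : Tic N S₁
  t₂ : Tic N S₂
  comm : ∀ x ∈ S₁, ∀ y ∈ S₂, x * y = y * x
  cross : ∀ g : H, S₁.map (MulAut.conj g).toMonoidHom = S₂ ∨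
    ∀ x ∈ S₁, g * x * g⁻¹ ∈ Subgroup.centralizer (S₂ : Set H)
  cross' : ∀ g : H, S₂.map (MulAut.conj g).toMonoidHom = S₁ ∨
    ∀ x ∈ S₂, g * x * g⁻¹ ∈ Subgroup.centralizer (S₁ : Set H)

namespace Two

variable {N S₁ S₂ : Subgroup H} (h : Two N S₁ S₂)
include h

theorem symm : Two N S₂ S₁ :=
  ⟨h.t₂, h.t₁, fun x hx y hy => (h.comm y hy x hx).symm, h.cross', h.cross⟩

theorem mem_cent₁ {x : H} (hx : x ∈ S₂) : x ∈ Subgroup.centralizer (S₁ : Set H) :=
  Subgroup.mem_centralizer_iff.2 fun y hy => h.comm y hy x hx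

theorem mem_cent₂ {x : H} (hx : x ∈ S₁) : x ∈ Subgroup.centralizer (S₂ : Set H) :=
  Subgroup.mem_centralizer_iff.2 fun y hy => (h.comm x hx y hy).symm

/-- The projection to `S₁ × S₂`. -/
noncomputable def pr : N →* ↥S₁ × ↥S₂ := h.t₁.pi.prod h.t₂.pi

theorem pr_surj : Function.Surjective h.pr := by
  rintro ⟨s, t⟩
  refine ⟨⟨s, h.t₁.le s.2⟩ * ⟨t, h.t₂.le t.2⟩, ?_⟩
  show (h.t₁.pi _, h.t₂.pi _) = _
  rw [map_mul, map_mul, h.t₁.pi_of_mem (x := ⟨s, h.t₁.le s.2⟩) s.2,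
    h.t₁.pi_of_comm (x := ⟨t, h.t₂.le t.2⟩) (h.mem_cent₁ t.2),
    h.t₂.pi_of_comm (x := ⟨s, h.t₁.le s.2⟩) (h.mem_cent₂ s.2),
    h.t₂.pi_of_mem (x := ⟨t, h.t₂.le t.2⟩) t.2, mul_one, one_mul]

variable [Finite H]

/-- The character `α × β × 1`. -/
noncomputable def zeta (α : IrrCharacter S₁) (β : IrrCharacter S₂) : IrrCharacter N :=
  ⟨(outer α β : ↥S₁ × ↥S₂ → ℂ) ∘ h.pr, isIrr_comp h.pr h.pr_surj (outer α β).2⟩

theorem zeta_apply (α : IrrCharacter S₁) (β : IrrCharacter S₂) (x : N) :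
    (h.zeta α β : N → ℂ) x = (α : S₁ → ℂ) (h.t₁.pi x) * (β : S₂ → ℂ) (h.t₂.pi x) := rfl

theorem charDegree_zeta (α : IrrCharacter S₁) (β : IrrCharacter S₂) :
    charDegree (h.zeta α β : N → ℂ) = charDegree (α : S₁ → ℂ) * charDegree (β : S₂ → ℂ) := by
  apply H672.charDegree_of_eq
  rw [zeta_apply, map_one, map_one, Nat.cast_mul, coe_charDegree α.2, coe_charDegree β.2]

theorem zeta_mem {M : Ideal AlgInt} [M.IsPrime] {α : IrrCharacter S₁} {β : IrrCharacter S₂}
    (hα : α ∈ principalBlock M S₁) (hβ : β ∈ principalBlock M S₂) : h.zeta α β ∈ principalBlock M N :=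
  H133.PB.mem_principalBlock_comp h.pr h.pr_surj (outer_mem hα hβ)

theorem inertia_le {α : IrrCharacter S₁} {β : IrrCharacter S₂} (hβ : (β : S₂ → ℂ) ≠ 1)
    (hne : ¬ (charDegree (α : S₁ → ℂ) = charDegree (β : S₂ → ℂ) ∧
      (Subgroup.normalizer (S₁ : Set H)).index = (Subgroup.normalizer (S₂ : Set H)).index)) :
    haveI := h.t₁.norm
    inertia N (h.zeta α β : N → ℂ) ≤ Subgroup.normalizer (S₂ : Set H) := by
  have hN := h.t₁.norm
  intro g hg
  rw [mem_inertia_iff] at hg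
  have hα0 : (α : S₁ → ℂ) 1 ≠ 0 := isIrr_apply_one_ne_zero α.2
  have hβ0 : (β : S₂ → ℂ) 1 ≠ 0 := isIrr_apply_one_ne_zero β.2
  rcases h.t₂.ti g with h1 | h1
  · rw [Subgroup.mem_normalizer_iff_conj_image_eq] at *
    exact congrArg (fun X : Subgroup H => (X : Set H)) h1
  · exfalso
    have h2 : ∀ x : S₂, (β : S₂ → ℂ) (h.t₂.pi ⟨g * x * g⁻¹, hN.conj_mem (x : H) (h.t₂.le x.2) g⟩) =
        (β : S₂ → ℂ) 1 := by
      intro x
      rw [h.t₂.pi_of_comm (h1 x x.2)]
    have h3 : ∀ x : S₂, (α : S₁ → ℂ) (h.t₁.pi ⟨g * x * g⁻¹, hN.conj_mem (x : H) (h.t₂.le x.2) g⟩) *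
        (β : S₂ → ℂ) 1 = (α : S₁ → ℂ) 1 * (β : S₂ → ℂ) x := by
      intro x
      have h4 := hg ⟨x, h.t₂.le x.2⟩
      rw [zeta_apply, zeta_apply] at h4
      rw [← h2 x]
      rw [h.t₂.pi_of_mem (x := ⟨x, h.t₂.le x.2⟩) x.2,
        h.t₁.pi_of_comm (x := ⟨x, h.t₂.le x.2⟩) (h.mem_cent₁ x.2)] at h4
      exact h4
    rcases h.cross' g with h4 | h4
    · -- `S₂ ^ g = S₁`
      have hmem : ∀ x : S₂, g * x * g⁻¹ ∈ S₁ := by
        intro x
        rw [← h4]
        exact ⟨x, x.2, rfl⟩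
      let e : S₂ ≃* S₁ := (MulEquiv.subgroupMap (MulAut.conj g) S₂).trans (MulEquiv.subgroupCongr h4)
      have he : ∀ x : S₂, (e x : H) = g * x * g⁻¹ := fun x => rfl
      let α' : IrrCharacter S₂ := ⟨(α : S₁ → ℂ) ∘ e, isIrr_comp e.toMonoidHom e.surjective α.2⟩
      have h5 : ∀ x : S₂, (α : S₁ → ℂ) (e x) * (β : S₂ → ℂ) 1 = (α : S₁ → ℂ) 1 * (β : S₂ → ℂ) x := by
        intro x
        rw [← h3 x, h.t₁.pi_of_mem (hmem x)]
        rfl
      have h6 : (α' : S₂ → ℂ) = (β : S₂ → ℂ) := by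
        have := Fintype.ofFinite S₂
        by_contra hne'
        have h7 := classInner_irr_ne α'.2 β.2 hne'
        have h8 : ((β : S₂ → ℂ) 1) • (α' : S₂ → ℂ) = ((α : S₁ → ℂ) 1) • (β : S₂ → ℂ) := by
          funext x
          rw [Pi.smul_apply, Pi.smul_apply, smul_eq_mul, smul_eq_mul, ← h5 x, mul_comm]
          rfl
        have h9 : classInner (((β : S₂ → ℂ) 1) • (α' : S₂ → ℂ)) (β : S₂ → ℂ) =
            classInner (((α : S₁ → ℂ) 1) • (β : S₂ → ℂ)) (β : S₂ → ℂ) := by rw [h8]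
        rw [classInner_smul_left, classInner_smul_left, h7, classInner_irr_self β.2, mul_zero,
          mul_one] at h9
        exact hα0 h9.symm
      apply hne
      constructor
      · have h7 := congrFun h6 1
        have h8 : (α' : S₂ → ℂ) 1 = (α : S₁ → ℂ) 1 := by
          show (α : S₁ → ℂ) (e 1) = _
          rw [map_one]
        rw [h8, ← coe_charDegree α.2, ← coe_charDegree β.2] at h7
        exact_mod_cast h7
      · rw [← h4]
        have h7 : Subgroup.normalizer ((S₂.map (MulAut.conj g).toMonoidHom : Subgroup H) : Set H) =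
            (Subgroup.normalizer (S₂ : Set H)).map (MulAut.conj g).toMonoidHom := by
          exact (Subgroup.map_normalizer_eq_of_bijective S₂ (MulAut.conj g).bijective).symm
        rw [h7]
        exact Subgroup.index_map_equiv _ (MulAut.conj g)
    · apply hβ
      apply Tic.eq_one_of_const h.t₂
      intro x
      have h5 := h3 x
      rw [h.t₁.pi_of_comm (h4 x x.2)] at h5
      exact (mul_left_cancel₀ hα0 h5).symm

/-- There are no two components. -/
theorem false {p : ℕ} [hpr : Fact p.Prime] {M : Ideal AlgInt} (hM : IsPModular p M)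
    (hS₁ : SizeOK S₁) (hS₂ : SizeOK S₂) {a b : ℕ}
    (hab : ∀ d ∈ cd0 M H, d ≠ 1 → d = a ∨ d = b) (h₁ : Ab M S₁ a b) (h₂ : Ab M S₂ a b) : False := by
  have hMp : M.IsPrime := hM.2.1.isPrime
  have hN := h.t₁.norm
  obtain ⟨α, hα, hα1, hαa⟩ := h₁.left
  obtain ⟨β, hβ, hβ1, hβb⟩ := h₂.right
  have hm₁ : 0 < (Subgroup.normalizer (S₁ : Set H)).index :=
    Nat.pos_of_ne_zero Subgroup.index_ne_zero_of_finite
  have hm₂ : 0 < (Subgroup.normalizer (S₂ : Set H)).index :=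
    Nat.pos_of_ne_zero Subgroup.index_ne_zero_of_finite
  have o₁ := SizeOK.lt hS₁ hα1
  have o₂ := SizeOK.lt hS₂ hβ1
  have l₁ := Nat.mul_lt_mul_of_pos_left o₁ hm₁
  have l₂ := Nat.mul_lt_mul_of_pos_left o₂ hm₂
  have k₁ : ¬ (Subgroup.normalizer (S₁ : Set H)).index * charDegree (α : S₁ → ℂ) ∣ b := fun hb => by
    have := h₁.gcd _ hαa hb
    omega
  have k₂ : ¬ (Subgroup.normalizer (S₂ : Set H)).index * charDegree (β : S₂ → ℂ) ∣ a := fun ha => by
    have := h₂.gcd _ ha hβb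
    omega
  have hne : ¬ (charDegree (α : S₁ → ℂ) = charDegree (β : S₂ → ℂ) ∧
      (Subgroup.normalizer (S₁ : Set H)).index = (Subgroup.normalizer (S₂ : Set H)).index) := by
    rintro ⟨e1, e2⟩
    apply k₁
    rw [e1, e2]
    exact hβb
  obtain ⟨χ, hχ, ho⟩ := exists_over_mem hM N (h.zeta_mem hα hβ)
  have hd := index_mul_charDegree_dvd N χ.2 (h.zeta α β).2 ho
  have i₂ := Subgroup.index_dvd_of_le (h.inertia_le (α := α) hβ1 hne)
  have hz : (h.zeta α β : N → ℂ) = (h.symm.zeta β α : N → ℂ) := by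
    funext x
    rw [zeta_apply, zeta_apply, mul_comm]
  have i₁ : (Subgroup.normalizer (S₁ : Set H)).index ∣ (inertia N (h.zeta α β : N → ℂ)).index := by
    rw [hz]
    exact Subgroup.index_dvd_of_le (h.symm.inertia_le (α := β) hα1
      (fun hh => hne ⟨hh.1.symm, hh.2.symm⟩))
  rw [h.charDegree_zeta] at hd
  have d₁ : (Subgroup.normalizer (S₁ : Set H)).index * charDegree (α : S₁ → ℂ) ∣ charDegree (χ : H → ℂ) :=
    (Nat.mul_dvd_mul i₁ (Nat.dvd_mul_right _ _)).trans hd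
  have d₂ : (Subgroup.normalizer (S₂ : Set H)).index * charDegree (β : S₂ → ℂ) ∣ charDegree (χ : H → ℂ) :=
    (Nat.mul_dvd_mul i₂ (Nat.dvd_mul_left _ _)).trans hd
  have hχ1 : charDegree (χ : H → ℂ) ≠ 1 := by
    intro h1
    rw [h1, Nat.dvd_one, mul_eq_one] at d₁
    have := out_pos (S := S₁)
    omega
  rcases hab _ (mem_cd0 hχ) hχ1 with e | e
  · exact k₂ (e ▸ d₂)
  · exact k₁ (e ▸ d₁)

end Two

end Cfsg.Agent.H751.BD
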